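import Cfsg.Agent.Lib.Symp.Group

/-! For S3142 (helper26, helper3). No Frobenius group `7:3` in `PSp₄(r)`, `r` odd, `128 ∤ |PSp₄(r)|`.
Characteristic 7 gives `16 ∣ r² - 1`, so `256 ∣ |Sp₄(r)|`. Otherwise lift `p` to `M ∈ Sp₄` with `M⁷ = 1`,
`M ≠ 1`, `M ~ M²` (7th powers fix the sign), `M⁻¹ ~ Mᵀ`; over the algebraic closure `1 + M + ... + M⁶` is singular, so `M` has an eigenvalue
`μ ≠ 1`, `μ⁷ = 1`, and the spectrum is closed under squaring and inversion: five roots of the characteristic polynomial of degree 4. -/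

set_option autoImplicit false

namespace Cfsg.Lib.A7S

open Polynomial

theorem no_mat {n L : Type*} [Fintype n] [DecidableEq n] [Field L] [IsAlgClosed L] (c : Fintype.card n = 4) (h7 : (7 : L) ≠ 0)
    {A : Matrix n n L} (a7 : A ^ 7 = 1) (a1 : A ≠ 1) (h2 : (A ^ 2).charpoly = A.charpoly) (h6 : (A ^ 6).charpoly = A.charpoly) :
    False := by
  classical
  have : Nonempty n := Fintype.card_pos_iff.1 (by omega)
  have z : (0 : L) ∈ spectrum L (aeval A (∑ i ∈ .range 7, X ^ i : L[X])) := (spectrum.zero_mem_iff L).2 fun u => a1 (by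
    have := geom_sum_mul A 7
    simp only [map_sum, map_pow, aeval_X] at u
    rwa [a7, sub_self, u.mul_right_eq_zero, sub_eq_zero] at this)
  rw [spectrum.map_polynomial_aeval_of_nonempty _ _ (spectrum.nonempty_of_isAlgClosed_of_finiteDimensional L A)] at z
  obtain ⟨μ, m, e⟩ := z
  simp only [eval_finsetSum, eval_pow, eval_X] at e
  have m7 : μ ^ 7 = 1 := by rw [← sub_eq_zero, ← geom_sum_mul, e, zero_mul]
  have : Fact (Nat.Prime 7) := ⟨by norm_num⟩
  have pr : IsPrimitiveRoot μ 7 := orderOf_eq_prime m7 (fun u => h7 (by simpa [u] using e)) ▸ IsPrimitiveRoot.orderOf μ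
  have s : ∀ k, (A ^ k).charpoly = A.charpoly → ∀ x ∈ spectrum L A, x ^ k ∈ spectrum L A := fun k h x m => by
    have := spectrum.pow_mem_pow A k m
    rwa [Matrix.mem_spectrum_iff_isRoot_charpoly, h, ← Matrix.mem_spectrum_iff_isRoot_charpoly] at this
  have := card_le_degree_of_subset_roots (p := A.charpoly) (Z := ({1, 2, 4, 5, 6} : Finset ℕ).image (μ ^ ·)) fun x p => by
    rw [mem_roots A.charpoly_monic.ne_zero, ← Matrix.mem_spectrum_iff_isRoot_charpoly]
    obtain ⟨i, u, rfl⟩ := Finset.mem_image.1 (Finset.mem_def.2 p)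
    simp only [Finset.mem_insert, Finset.mem_singleton] at u
    rcases u with rfl | rfl | rfl | rfl | rfl
    exacts [(pow_one μ).symm ▸ m, s 2 h2 _ m, pow_mul μ 2 2 ▸ s 2 h2 _ (s 2 h2 _ m),
      by have := s 2 h2 _ (s 6 h6 _ m); rwa [← pow_mul, show 6 * 2 = 7 + 5 from rfl, pow_add, m7, one_mul] at this, s 6 h6 _ m]
  rw [Finset.card_image_of_injOn fun i p j q e => pr.pow_inj (by simp at p; omega) (by simp at q; omega) e,
    Matrix.charpoly_natDegree_eq_dim, c] at this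
  exact absurd this (by decide)

theorem no_psp {K : Type*} [Field K] [Fintype K] (o : Odd (Fintype.card K)) (h : ¬ 128 ∣ Nat.card (Cfsg.PSp 2 K)) {p q : Cfsg.PSp 2 K}
    (p7 : p ^ 7 = 1) (p1 : p ≠ 1) (pq : q⁻¹ * p * q = p ^ 2) : False := by
  by_cases h7 : (7 : K) = 0
  · have : Fact (Nat.Prime 7) := ⟨by norm_num⟩
    have := (CharP.charP_iff_prime_eq_zero this.out).2 (show ((7 : ℕ) : K) = 0 by simpa using h7)
    obtain ⟨n, -, e⟩ := FiniteField.card K 7
    have a := Symp.card_psp_mul (l := Fin 2) (F := K)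
    have d : ∀ k, 16 ∣ Fintype.card K ^ (2 * k) - 1 := fun k => by
      rw [e, ← pow_mul, mul_left_comm, pow_mul]
      exact (by norm_num : 16 ∣ 7 ^ 2 - 1).trans (Nat.sub_one_dvd_pow_sub_one _ _)
    rw [Symp.card_sp, Nat.card_eq_fintype_card (α := K), Fintype.card_fin, Finset.prod_range_succ, Finset.prod_range_one,
      Nat.gcd_eq_left (even_iff_two_dvd.1 (Nat.Odd.sub_odd o odd_one))] at a
    exact h (Nat.dvd_of_mul_dvd_mul_left two_pos (a ▸ (mul_dvd_mul (d _) (d _)).mul_left _))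
  obtain ⟨P, rfl⟩ := QuotientGroup.mk_surjective p
  obtain ⟨Q, rfl⟩ := QuotientGroup.mk_surjective q
  have c : ∀ z ∈ Subgroup.center (Matrix.symplecticGroup (Fin 2) K), z ^ 2 = 1 := fun z m => by
    rcases (Symp.mem_center_sp_iff z).1 m with rfl | rfl
    exacts [one_pow _, Subtype.ext (by simp)]
  obtain ⟨M, m7, e⟩ : ∃ M : Matrix.symplecticGroup (Fin 2) K, M ^ 7 = 1 ∧ (M : PSp 2 K) = P :=
    ⟨P ^ 8, by rw [← pow_mul, show 8 * 7 = 7 * 2 * 4 from rfl, pow_mul, pow_mul, c _ ((QuotientGroup.eq_one_iff _).1 p7), one_pow],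
      by rw [QuotientGroup.mk_pow, pow_succ', p7, mul_one]⟩
  rw [← e] at pq p1
  have u : (M ^ 2)⁻¹ * (Q⁻¹ * M * Q) ∈ Subgroup.center _ := QuotientGroup.eq.1 pq.symm
  have v : Q⁻¹ * M * Q = M ^ 2 := by
    have w : (Q⁻¹ * M * Q) ^ 7 = 1 := by simpa [m7] using conj_pow (a := Q⁻¹) (b := M) (i := 7)
    rw [← mul_inv_cancel_left (M ^ 2) (Q⁻¹ * M * Q)] at w ⊢
    generalize (M ^ 2)⁻¹ * (Q⁻¹ * M * Q) = z at u w
    rw [Commute.mul_pow (Subgroup.mem_center_iff.1 u _), ← pow_mul, mul_comm 2, pow_mul, m7, one_pow, one_mul, pow_succ,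
      show 6 = 2 * 3 from rfl, pow_mul, c z u, one_pow, one_mul] at w
    rw [w, mul_one]
  let φ := (algebraMap K (AlgebraicClosure K)).mapMatrix (m := Fin 2 ⊕ Fin 2)
  have k : ∀ i, (M ^ i).1.charpoly = M.1.charpoly → (φ M.1 ^ i).charpoly = (φ M.1).charpoly := fun i e => by
    rw [← map_pow]
    exact (Matrix.charpoly_map _ _).trans ((congrArg _ e).trans (Matrix.charpoly_map _ _).symm)
  refine no_mat (A := φ M.1) (by simp) (fun e => h7 ((algebraMap K (AlgebraicClosure K)).injective ((map_ofNat _ 7).trans (e.trans (map_zero _).symm))))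
    (by rw [← map_pow, ← SubmonoidClass.coe_pow, m7, OneMemClass.coe_one, map_one]) (fun e => p1 ?_) (k 2 ?_) (k 6 ?_)
  · rw [show M = 1 from Subtype.ext (Matrix.map_injective (algebraMap K _).injective (e.trans (map_one φ).symm))]; rfl
  · rw [← v, Submonoid.coe_mul, Matrix.charpoly_mul_comm, ← Submonoid.coe_mul, mul_inv_cancel_left]
  · rw [← inv_eq_of_mul_eq_one_right ((pow_succ' M 6).symm.trans m7), SymplecticGroup.coe_inv, Matrix.charpoly_mul_comm, ← mul_assoc,
      mul_neg, Matrix.J_squared, neg_neg, one_mul, Matrix.charpoly_transpose]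

end Cfsg.Lib.A7S
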